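import Cfsg.Agent.Lib.OMax.Core
import Cfsg.Agent.Lib.Linear.MaxField2

/-!
# Extension-field subgroups of orthogonal groups: common tools
-/

namespace Cfsg.Lib.OMax

open QuadraticMap Module Cfsg.Lib.Orth

set_option linter.unusedSectionVars false

section coef

variable {F K : Type*} [Field F] [Field K] [Algebra F K]

theorem eq_of_coef {τ : K →ₗ[F] F} (hτ : τ ≠ 0) {a b : K} (h : ∀ κ, τ (κ * a) = τ (κ * b)) :
    a = b := by
  by_contra h0
  refine hτ (LinearMap.ext fun x => ?_)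
  have := h (x * (a - b)⁻¹)
  rw [← sub_eq_zero, ← map_sub, ← mul_sub, inv_mul_cancel_right₀ (sub_ne_zero.2 h0)] at this
  exact this

theorem exists_coef_eq [Module.Finite F K] {τ : K →ₗ[F] F} (hτ : τ ≠ 0) (l : K →ₗ[F] F) :
    ∃ b : K, ∀ κ, τ (κ * b) = l κ := by
  let L : K →ₗ[F] (K →ₗ[F] F) :=
    { toFun := fun b => τ ∘ₗ LinearMap.mulRight F b
      map_add' := fun a b => LinearMap.ext fun κ => by simp [mul_add]
      map_smul' := fun c b => LinearMap.ext fun κ => by simp }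
  have h1 : Function.Injective L := fun a b hb =>
    eq_of_coef hτ fun κ => LinearMap.congr_fun hb κ
  have h2 := (LinearMap.injective_iff_surjective_of_finrank_eq_finrank
    (Module.finrank_linearMap_self F F K).symm).1 h1
  exact (h2 l).imp fun b hb κ => LinearMap.congr_fun hb κ

/-- The `K`-valued sesquilinear form whose `τ`-trace is a given `F`-bilinear form. -/
theorem exists_kform [Module.Finite F K] {V : Type*} [AddCommGroup V] [Module F V] [Module K V]
    [IsScalarTower F K V] {τ : K →ₗ[F] F} (hτ : τ ≠ 0) (f : V →ₗ[F] V →ₗ[F] F) {σ : K →+* K}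
    (hσ : ∀ (κ : K) u v, f (κ • u) v = f u (σ κ • v)) :
    ∃ B : V →ₛₗ[σ] V →ₗ[K] K, ∀ κ u v, τ (κ * B u v) = f u (κ • v) := by
  choose b hb using fun x y => exists_coef_eq hτ (f x ∘ₗ
    (LinearMap.toSpanSingleton K _ y).restrictScalars F)
  replace hb : ∀ x y κ, τ (κ * b x y) = f x (κ • y) := hb
  refine ⟨LinearMap.mk₂'ₛₗ σ (RingHom.id K) b (fun x x' y => eq_of_coef hτ fun κ => ?_)
    (fun c x y => eq_of_coef hτ fun κ => ?_)
    (fun x y y' => eq_of_coef hτ fun κ => ?_)
    (fun c x y => eq_of_coef hτ fun κ => ?_), fun κ u v => hb u v κ⟩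
  · rw [mul_add, map_add, hb, hb, hb, map_add, LinearMap.add_apply]
  · rw [smul_eq_mul, ← mul_assoc, hb, hb, hσ, smul_smul, mul_comm]
  · rw [mul_add, map_add, hb, hb, hb, smul_add, map_add]
  · rw [smul_eq_mul, ← mul_assoc, hb, hb, smul_smul, RingHom.id_apply]

end coef

variable {F V : Type*} [Field F] [AddCommGroup V] [Module F V] {Q : QuadraticForm F V}

/-- A commutator of two Eichler elements. -/
theorem polar_smul_mem_AE {M : Subgroup (O Q)} {e e' w w' : V} (he' : Q e' = 0)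
    (hee : polar Q e' e = 0) (hw : w ∈ AE M e) (hw' : w' ∈ AE M e') (h1 : polar Q e' w = 0)
    (h2 : polar Q w' e = 0) : polar Q w' w • e' ∈ AE M e := by
  have h3 := apply_mem_AE hw'.2 (by rw [eich_apply_of_perp he' hw'.1 hee, h2, zero_smul, add_zero]) hw
  rw [eich_apply_of_perp he' hw'.1 h1] at h3
  simpa using sub_mem h3 hw

theorem finrank_span_le_card' {s : Finset V} : finrank F (Submodule.span F (s : Set V)) ≤ s.card :=
  finrank_span_finset_le_card s

theorem exists_polar_eq_one [FiniteDimensional F V] (hQ : ND Q) {W : Submodule F V}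
    (h : 2 * finrank F W < finrank F V) :
    ∃ x ∈ perp Q W, ∃ y ∈ perp Q W, polar Q x y = 1 := by
  have h1 : ¬ perp Q W ≤ W := fun h1 => by
    have := Submodule.finrank_mono h1
    have := finrank_add_finrank_perp hQ W
    omega
  obtain ⟨x, hx, hx'⟩ := SetLike.not_le_iff_exists.1 h1
  obtain ⟨y, hy, hy'⟩ := exists_perp_polar_eq hQ hx' 1
  exact ⟨x, hx, y, hy, hy'⟩

variable {K : Type*} [Field K] [Module K V]

variable (K Q) in
/-- The `K`-semilinear isometries. -/
def semiO : Subgroup (O Q) where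
  carrier := {g | (∀ κ : K, ∃ κ' : K, ∀ x, g.1 (κ • x) = κ' • g.1 x) ∧
    ∀ κ' : K, ∃ κ : K, ∀ x, g.1 (κ • x) = κ' • g.1 x}
  one_mem' := ⟨fun κ => ⟨κ, fun _ => rfl⟩, fun κ => ⟨κ, fun _ => rfl⟩⟩
  mul_mem' := by
    rintro g h ⟨g1, g2⟩ ⟨h1, h2⟩
    refine ⟨fun κ => ?_, fun κ => ?_⟩
    · obtain ⟨a, ha⟩ := h1 κ
      obtain ⟨b, hb⟩ := g1 a
      exact ⟨b, fun x => by rw [O.mul_apply, O.mul_apply, ha, hb]⟩
    · obtain ⟨a, ha⟩ := g2 κ
      obtain ⟨b, hb⟩ := h2 a
      exact ⟨b, fun x => by rw [O.mul_apply, O.mul_apply, hb, ha]⟩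
  inv_mem' := by
    rintro g ⟨g1, g2⟩
    refine ⟨fun κ => ?_, fun κ => ?_⟩
    · obtain ⟨a, ha⟩ := g2 κ
      exact ⟨a, fun x => by rw [O.inv_apply_eq, ha, O.apply_inv_apply]⟩
    · obtain ⟨a, ha⟩ := g1 κ
      exact ⟨a, fun x => by rw [O.inv_apply_eq, ha, O.apply_inv_apply]⟩

theorem mem_semiO_of_linear {g : O Q} (h : ∀ (κ : K) x, g.1 (κ • x) = κ • g.1 x) :
    g ∈ semiO Q K := ⟨fun κ => ⟨κ, h κ⟩, fun κ => ⟨κ, h κ⟩⟩

theorem mem_semiO_of_forall [Finite K] {g : O Q}
    (h : ∀ κ : K, ∃ κ' : K, ∀ x, g.1 (κ • x) = κ' • g.1 x) : g ∈ semiO Q K := by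
  refine ⟨h, fun κ' => ?_⟩
  rcases subsingleton_or_nontrivial V with hV | hV
  · exact ⟨0, fun x => Subsingleton.elim _ _⟩
  choose φ hφ using h
  obtain ⟨x, hx⟩ := exists_ne (0 : V)
  have h1 : Function.Injective φ := fun a b hab => by
    have := hφ a x
    rw [hab, ← hφ b x, g.1.injective.eq_iff] at this
    exact smul_left_injective K hx this
  obtain ⟨κ, rfl⟩ := Finite.injective_iff_surjective.1 h1 κ'
  exact ⟨κ, hφ κ⟩

variable [Algebra F K] [IsScalarTower F K V]

theorem not_commutator_le_semiO [Finite F] [FiniteDimensional F V] (hQ : ND Q)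
    (h5 : 5 ≤ finrank F V) (hr : 2 ≤ finrank F K) : ¬ commutator (O Q) ≤ semiO Q K := by
  intro h
  obtain ⟨κ, hκ⟩ := Linear.exists_notMem_range hr
  obtain ⟨e, he0, he⟩ := exists_singular Q (by omega)
  have h1 : ¬ perp Q (F ∙ e) ≤ Submodule.span F {e, κ • e} := fun h1 => by
    have := Submodule.finrank_mono h1
    have := finrank_perp_singleton hQ he0
    have := Linear.finrank_span_pair_le (F := F) e (κ • e)
    omega
  obtain ⟨z, hz, hz'⟩ := SetLike.not_le_iff_exists.1 h1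
  rw [mem_perp_singleton] at hz
  obtain ⟨κ', hκ'⟩ := (h (eich_mem_commutator hQ (not_exc_of_five_le h5) e z)).1 κ
  let L : V →ₗ[F] V := (LinearMap.lsmul K V κ).restrictScalars F
  obtain ⟨x, ⟨hx1, hx2⟩, hx0⟩ : ∃ x ∈ perp Q (Submodule.span F {e, z}) ⊓
      (perp Q (Submodule.span F {e, z})).comap L, x ≠ 0 := by
    refine Submodule.exists_mem_ne_zero_of_ne_bot fun h0 => ?_
    have h2 := Submodule.finrank_sup_add_finrank_inf_eq (perp Q (Submodule.span F {e, z}))
      ((perp Q (Submodule.span F {e, z})).comap L)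
    have h3 := finrank_add_finrank_perp hQ (Submodule.span F {e, z})
    have h4 := Linear.finrank_span_pair_le (F := F) e z
    have h6 := Submodule.finrank_le (perp Q (Submodule.span F {e, z}) ⊔
      (perp Q (Submodule.span F {e, z})).comap L)
    have h7 : finrank F (perp Q (Submodule.span F {e, z})) ≤
        finrank F ((perp Q (Submodule.span F {e, z})).comap L) := by
      have hκ0 : κ ≠ 0 := fun h0 => hκ 0 (by rw [h0, map_zero])
      let L' : V ≃ₗ[F] V := LinearEquiv.ofInjectiveEndo L fun a b hab =>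
        smul_right_injective V hκ0 hab
      rw [show (perp Q (Submodule.span F {e, z})).comap L =
        (perp Q (Submodule.span F {e, z})).comap (L' : V →ₗ[F] V) from rfl,
        Submodule.comap_equiv_eq_map_symm, LinearEquiv.finrank_map_eq]
    rw [h0, finrank_bot] at h2
    omega
  have h2 : ∀ x ∈ perp Q (Submodule.span F {e, z}), (eich Q e z).1 x = x := fun x hx => by
    rw [mem_perp_pair] at hx
    rw [eich_apply_of_perp he hz hx.1, hx.2, zero_smul, add_zero]
  have h3 : κ' = κ := by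
    have := hκ' x
    rw [h2 _ hx1, h2 (κ • x) hx2] at this
    exact (smul_left_injective K hx0 this).symm
  subst h3
  obtain ⟨y, hy, hy'⟩ := exists_perp_polar_eq hQ (W := F ∙ e) (u := z)
    (fun h0 => hz' (Submodule.span_mono (by simp) h0)) 1
  rw [mem_perp_singleton] at hy
  have h4 := hκ' y
  rw [eich_apply_of_perp he hz hy, hy', one_smul, eich_apply he hz, smul_add] at h4
  by_cases h6 : polar Q e (κ' • y) = 0
  · refine hκ (polar Q z (κ' • y)) (smul_left_injective K he0 ?_)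
    simp only [h6, zero_smul, mul_zero, sub_zero, add_right_inj] at h4
    simpa using h4
  · refine hz' (Submodule.mem_span_pair.2 ⟨(polar Q e (κ' • y))⁻¹ *
      (polar Q z (κ' • y) - Q z * polar Q e (κ' • y)), -(polar Q e (κ' • y))⁻¹, ?_⟩)
    rw [mul_smul, neg_smul, ← sub_eq_add_neg, ← smul_sub, inv_smul_eq_iff₀ h6, sub_smul]
    linear_combination (norm := abel_nf) h4

end Cfsg.Lib.OMax

namespace Cfsg.Lib.OMax

open QuadraticMap Module Cfsg.Lib.Orth Matrix

variable {F : Type*} [Field F] {ι : Type} [Fintype ι] [DecidableEq ι]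
  {Q : QuadraticForm F (ι → F)}

theorem isMaximalIn_semiO [Finite F] [Nonempty ι] (hQ : ND Q) (h5 : 5 ≤ Fintype.card ι) {r : ℕ} (hr : 2 ≤ r)
    {K : Subalgebra F (Matrix ι ι F)} (hK : Geo.IsFieldSubalgebra r K)
    (h : letI := (Asch.isField_of_isFieldSubalgebra hK).toField
      ∀ M, semiO Q K ⊓ commutator (O Q) ≤ M → M ≤ commutator (O Q) → ∀ g ∈ M, g ∉ semiO Q K →
        commutator (O Q) ≤ M) :
    Geo.IsMaximalIn (Geo.omegaGL ⇑Q) (Geo.subalgebraNormalizer K ⊓ Geo.omegaGL ⇑Q) := by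
  let _ := (Asch.isField_of_isFieldSubalgebra hK).toField
  rw [Linear.subalgebraNormalizer_eq hK]
  refine isMaximalIn_of (H' := semiO Q K) (fun g => Iff.rfl)
    (not_commutator_le_semiO hQ (by simpa) (hK.finrank_eq ▸ hr)) fun M h1 h2 => ?_
  by_cases h3 : M ≤ semiO Q K
  · exact Or.inl h3
  · obtain ⟨g, hg, hg'⟩ := SetLike.not_le_iff_exists.1 h3
    exact Or.inr (h M h1 h2 g hg hg')

end Cfsg.Lib.OMax
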