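import Cfsg.Agent.Lib.OMax.ExtA

/-!
# Two algebraic lemmas: Chevalley–Warning for quadratic maps, and subrings of `End_F K`
-/

namespace Cfsg.Lib.OMax

open Module

/-- Chevalley–Warning for a map with a linear and a quadratic part. -/
theorem exists_ne_zero_of_two_mul_lt {F W Y : Type*} [Field F] [Finite F] [AddCommGroup W]
    [Module F W] [FiniteDimensional F W] [AddCommGroup Y] [Module F Y] [FiniteDimensional F Y]
    (l : W →ₗ[F] Y) (B : W →ₗ[F] W →ₗ[F] Y) (h : 2 * finrank F Y < finrank F W) :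
    ∃ w, w ≠ 0 ∧ l w + B w w = 0 := by
  classical
  have := Fintype.ofFinite F
  obtain ⟨p, hp⟩ := CharP.exists F
  have hp' := CharP.char_is_prime F p
  let b := finBasis F W
  let c := finBasis F Y
  let f : Fin (finrank F Y) → MvPolynomial (Fin (finrank F W)) F := fun j =>
    ∑ i, MvPolynomial.C (c.repr (l (b i)) j) * MvPolynomial.X i +
      ∑ i, ∑ k, MvPolynomial.C (c.repr (B (b i) (b k)) j) * (MvPolynomial.X i * MvPolynomial.X k)
  have hf : ∀ j, (f j).totalDegree ≤ 2 := fun j => by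
    refine (MvPolynomial.totalDegree_add _ _).trans (max_le ?_ ?_)
    · refine MvPolynomial.totalDegree_finsetSum_le fun i _ => ?_
      refine (MvPolynomial.totalDegree_mul _ _).trans ?_
      simp [MvPolynomial.totalDegree_X]
    · refine MvPolynomial.totalDegree_finsetSum_le fun i _ =>
        MvPolynomial.totalDegree_finsetSum_le fun k _ => ?_
      refine (MvPolynomial.totalDegree_mul _ _).trans ?_
      rw [MvPolynomial.totalDegree_C, zero_add]
      refine (MvPolynomial.totalDegree_mul _ _).trans ?_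
      simp [MvPolynomial.totalDegree_X]
  have he : ∀ x j, MvPolynomial.eval x (f j) =
      c.repr (l (∑ i, x i • b i) + B (∑ i, x i • b i) (∑ i, x i • b i)) j := fun x j => by
    simp only [f, map_add, map_sum, map_mul, MvPolynomial.eval_C, MvPolynomial.eval_X, map_smul,
      LinearMap.sum_apply, LinearMap.smul_apply, Finsupp.coe_add, Finsupp.coe_finsetSum,
      Finsupp.coe_smul, Pi.add_apply, Finset.sum_apply, Pi.smul_apply, smul_eq_mul, Finset.mul_sum]
    congr 1
    · exact Finset.sum_congr rfl fun i _ => mul_comm _ _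
    · rw [Finset.sum_comm]
      exact Finset.sum_congr rfl fun i _ => Finset.sum_congr rfl fun k _ => by ring
  have h1 := char_dvd_card_solutions_of_fintype_sum_lt p (f := f) (by
    refine (Finset.sum_le_card_nsmul _ _ 2 fun j _ => hf j).trans_lt ?_
    simpa [mul_comm] using h)
  have h0 : ∀ j, MvPolynomial.eval 0 (f j) = 0 := fun j => by rw [he]; simp
  have h2 : 1 < Fintype.card {x // ∀ j, MvPolynomial.eval x (f j) = 0} :=
    hp'.one_lt.trans_le (Nat.le_of_dvd (Fintype.card_pos_iff.2 ⟨⟨0, h0⟩⟩) (by convert h1))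
  obtain ⟨⟨x, hx⟩, hx0⟩ := Fintype.exists_ne_of_one_lt_card h2 ⟨0, h0⟩
  refine ⟨∑ i, x i • b i, fun h0 => hx0 (Subtype.ext (funext fun i => ?_)), ?_⟩
  · exact Fintype.linearIndependent_iff.1 b.linearIndependent x h0 i
  · exact c.repr.injective (Finsupp.ext fun j => by rw [← he, hx, map_zero, Finsupp.zero_apply])

variable {F K : Type*} [Field F] [Field K] [Algebra F K]

/-- A subring of `End_F K` properly containing `K` (of prime degree) contains all maps of rank one. -/
theorem smulRight_mem_of_prime (hr : (finrank F K).Prime) {R : Subring (Module.End F K)}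
    (h1 : ∀ κ : K, LinearMap.mulLeft F κ ∈ R) {ψ : Module.End F K} (hψ : ψ ∈ R)
    (hψ' : ¬ ∀ y, ψ y = ψ 1 * y) (θ : K →ₗ[F] F) (d : K) : θ.smulRight d ∈ R := by
  have : Module.Finite F K := Module.finite_of_finrank_pos hr.pos
  let S : Set ℕ := {k | ∃ ρ ∈ R, ρ ≠ 0 ∧ finrank F (LinearMap.ker ρ) = k}
  have hS : BddAbove S := ⟨finrank F K, fun _ ⟨ρ, _, _, h⟩ => h ▸ Submodule.finrank_le _⟩
  have h2 : ψ - LinearMap.mulLeft F (ψ 1) ≠ 0 := fun h0 => hψ' fun y => by
    simpa [sub_eq_zero] using LinearMap.congr_fun h0 y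
  have h3 : finrank F (LinearMap.ker (ψ - LinearMap.mulLeft F (ψ 1))) ∈ S :=
    ⟨_, sub_mem hψ (h1 _), h2, rfl⟩
  obtain ⟨ρ, hρ, hρ0, hρS⟩ := Nat.sSup_mem ⟨_, h3⟩ hS
  have hmax : ∀ ρ' ∈ R, LinearMap.ker ρ < LinearMap.ker ρ' → ρ' = 0 := fun ρ' h h' => by
    by_contra h0
    have := le_csSup hS ⟨ρ', h, h0, rfl⟩
    have := Submodule.finrank_lt_finrank_of_lt h'
    omega
  have h4 : LinearMap.ker ρ ≠ ⊥ := fun h0 => by
    have h5 := le_csSup hS h3
    rw [← hρS, h0, finrank_bot, Nat.le_zero, Submodule.finrank_eq_zero, Submodule.eq_bot_iff] at h5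
    exact one_ne_zero (h5 1 (by simp))
  obtain ⟨y₀, hy₀⟩ : ∃ y, ρ y ≠ 0 := by
    by_contra! h0
    exact hρ0 (LinearMap.ext h0)
  have h5 : ∀ y, ∃ c : F, c • ρ y₀ = ρ y := fun y => by
    obtain ⟨c, hc⟩ := Linear.mem_range_of_mul_mem hr h4 (by simpa) (l := ρ y / ρ y₀) fun δ hδ => by
      have h6 := hmax (ρ * LinearMap.mulLeft F (δ / ρ y₀) * ρ) (mul_mem (mul_mem hρ (h1 _)) hρ)
        (lt_of_le_of_ne (fun x hx => by simp [LinearMap.mem_ker.1 hx]) fun h0 => hy₀ (by
          rw [← LinearMap.mem_ker, h0]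
          simpa [hy₀] using hδ))
      have h7 := LinearMap.congr_fun h6 y
      simp only [Module.End.mul_apply, LinearMap.mulLeft_apply, LinearMap.zero_apply] at h7
      rw [LinearMap.mem_ker, ← h7]
      congr 1
      ring
    exact ⟨c, by rw [Algebra.smul_def, hc, div_mul_cancel₀ _ hy₀]⟩
  choose t ht using h5
  let τ : K →ₗ[F] F :=
    { toFun := t
      map_add' := fun a b => smul_left_injective F hy₀ (by simp only [add_smul, ht, map_add])
      map_smul' := fun c a => smul_left_injective F hy₀ (by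
        simp only [RingHom.id_apply, smul_eq_mul, mul_smul, ht, map_smul]) }
  have hτ : τ ≠ 0 := fun h0 => hy₀ (by
    rw [← ht y₀, show t y₀ = τ y₀ from rfl, h0, LinearMap.zero_apply, zero_smul])
  obtain ⟨b, hb⟩ := exists_coef_eq hτ θ
  convert mul_mem (mul_mem (h1 (d / ρ y₀)) hρ) (h1 b) using 1
  ext y
  simp only [LinearMap.smulRight_apply, Module.End.mul_apply, LinearMap.mulLeft_apply]
  rw [← ht (b * y), mul_comm b, show t (y * b) = τ (y * b) from rfl, hb, mul_smul_comm,
    div_mul_cancel₀ _ hy₀]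

end Cfsg.Lib.OMax
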